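import Cfsg.Agent.ChevFast.Base
import Cfsg.Agent.ChevalleyStructure.SparseEng
import Cfsg.Agent.Prune
set_option linter.all false
prune_inst 0x7f00000000000000000000000000000000000000000000000000000000000000000000000000000000000000000000000000000000000000000000000000000000000000000000000000000000000000003fffffffffffffffffffffffffffbeffbdffffffff
open scoped Cfsg.Agent.FastGrp

/-!
# The sparse engine on packed tables (helper52)

Equations which replace the functions of the sparse engine by versions the kernel evaluates fast.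
-/

set_option autoImplicit false

namespace Cfsg.Agent.ChevFast

open Cfsg.Lie Cfsg.Agent.ChevalleyStructure.SparseEng

/-- evaluate a number first -/
noncomputable def frc {α : Type} (n : ℕ) (f : ℕ → α) : α := Nat.rec (f 0) (fun k _ => f (Nat.succ k)) n

theorem frc_eq {α : Type} (n : ℕ) (f : ℕ → α) : frc n f = f n := by cases n <;> rfl

/-- evaluate an integer first -/
noncomputable def frz {α : Type} (z : ℤ) (f : ℤ → α) : α :=
  Int.rec (fun n => frc n fun m => f (Int.ofNat m)) (fun n => frc n fun m => f (Int.negSucc m)) z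

theorem frz_eq {α : Type} (z : ℤ) (f : ℤ → α) : frz z f = f z := by
  cases z with
  | ofNat n => exact frc_eq n fun m => f (Int.ofNat m)
  | negSucc n => exact frc_eq n fun m => f (Int.negSucc m)

/-- `act` from the tables -/
noncomputable def actT (n N : ℕ) (ca : ℕ → ℕ → ℤ) (co : ℕ → List (ℕ × ℤ × ℕ)) (w T r k : ℕ) : List (ℕ × ℤ × ℕ) :=
  frc r fun r => frc k fun k =>
    bif Nat.blt r N then
      bif Nat.blt k n then [(k, Int.ofNat 1, 0), (Nat.add n r, Int.neg (ca k r), 1)]
      else bif Nat.blt k (Nat.add n N) then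
        frc (cc w T r (Nat.sub k n)) fun c =>
          bif Nat.beq c 0 then
            bif Nat.beq (Nat.succ (Nat.add k r)) (Nat.add n N) then
              bif Nat.beq k (Nat.add n r) then [(k, Int.ofNat 1, 0)]
              else (k, Int.ofNat 1, 0) :: (Nat.add n r, Int.negSucc 0, 2) :: co r
            else [(k, Int.ofNat 1, 0)]
          else bif Nat.beq k (Nat.add n r) then [(k, Int.ofNat 1, 0)]
          else bif Nat.beq (Nat.succ (Nat.add k r)) (Nat.add n N) then
            (k, Int.ofNat 1, 0) :: (Nat.add n r, Int.negSucc 0, 2) :: co r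
          else [(k, Int.ofNat 1, 0), (Nat.add n (ix c), sg c, 1)]
      else []
    else [(k, Int.ofNat 1, 0)]

theorem blt_eq (a b : ℕ) : Nat.blt a b = decide (a < b) := by
  by_cases h : a < b
  · rw [decide_eq_true h, Nat.blt_eq.mpr h]
  · rw [decide_eq_false h, Bool.eq_false_iff.2 fun h1 => h (Nat.blt_eq.mp h1)]

theorem beq_eq (a b : ℕ) : Nat.beq a b = decide (a = b) := by
  by_cases h : a = b
  · rw [decide_eq_true h, h, Nat.beq_refl]
  · rw [decide_eq_false h, Bool.eq_false_iff.2 fun h1 => h (Nat.eq_of_beq_eq_true h1)]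

theorem act_eq {D : ChevalleyDatum} {n N m w T : ℕ} {ca : ℕ → ℕ → ℤ} {co : ℕ → List (ℕ × ℤ × ℕ)}
    (hn : D.rank = n) (hN : D.nroots = N) (hm : N = m + 1) (hneg : D.neg = fun r => Nat.sub m r) (hca : D.cartan = ca)
    (hco : ∀ r, r < N → (List.range n).map (fun i => (i, (D.coroot.getD r #[]).getD i 0, 1)) = co r)
    (h : rowsC w D.chain.toList T = true) : act D = actT n N ca co w T := by
  funext r k
  have h1 : D.negIdx.getD r 0 = m - r := congrFun hneg r
  have h2 : (D.cartanSR.getD k #[]).getD r 0 = ca k r := congrFun (congrFun hca k) r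
  have h3 : (((D.chain.getD r #[]).toList.filter (fun e => e.1 = k - n)).flatMap
      fun e => (e.2.toList.zipIdx).map fun q => (n + q.1.1, q.1.2, q.2 + 1)) =
      bif Nat.beq (cc w T r (k - n)) 0 then [] else [(n + ix (cc w T r (k - n)), sg (cc w T r (k - n)), 1)] := by
    have h4 := congrArg (fun L : List (List (ℕ × ℤ)) => L.flatMap
      fun l => (l.zipIdx).map fun q => (n + q.1.1, q.1.2, q.2 + 1)) (filter_eq h r (k - n))
    beta_reduce at h4
    rw [List.flatMap_map] at h4
    refine h4.trans ?_
    delta dc
    cases Nat.beq (cc w T r (k - n)) 0 <;> rfl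
  delta act actT
  rw [frc_eq, frc_eq, frc_eq, hn, hN, h1, h2, h3, blt_eq, blt_eq, blt_eq, beq_eq k, beq_eq (Nat.succ _)]
  by_cases c1 : r < N
  · rw [if_pos c1, decide_eq_true c1]
    by_cases c2 : k < n
    · rw [if_pos c2, decide_eq_true c2]; rfl
    · rw [if_neg c2, decide_eq_false c2]
      by_cases c3 : k < n + N
      · rw [if_pos c3, decide_eq_true (show k < Nat.add n N from c3)]
        by_cases c4 : k - n = r
        · rw [if_pos c4, decide_eq_true (show k = Nat.add n r from (by omega : k = n + r))]
          cases Nat.beq (cc w T r (Nat.sub k n)) 0 <;> cases decide (Nat.succ (Nat.add k r) = Nat.add n N) <;> rfl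
        · rw [if_neg c4, decide_eq_false (show ¬ k = Nat.add n r from (by omega : ¬ k = n + r))]
          by_cases c5 : k - n = m - r
          · rw [if_pos c5, decide_eq_true (show Nat.succ (Nat.add k r) = Nat.add n N from (by omega : k + r + 1 = n + N)), hco r c1]
            cases Nat.beq (cc w T r (Nat.sub k n)) 0 <;> rfl
          · rw [if_neg c5, decide_eq_false (show ¬ Nat.succ (Nat.add k r) = Nat.add n N from (by omega : ¬ k + r + 1 = n + N))]
            change (_ :: bif Nat.beq (cc w T r (Nat.sub k n)) 0 then _ else _) = _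
            cases Nat.beq (cc w T r (Nat.sub k n)) 0 <;> rfl
      · rw [if_neg c3, decide_eq_false (show ¬ k < Nat.add n N from c3)]; rfl
  · rw [if_neg c1, decide_eq_false c1]; rfl

theorem len_le {D : ChevalleyDatum} {w T : ℕ} (h : rowsC w D.chain.toList T = true) (r : ℕ) :
    ∀ e ∈ (D.chain.getD r #[]).toList, e.2.toList.length ≤ 1 := by
  intro e he
  have h1 : e.2.toList ∈ ((D.chain.getD r #[]).toList.filter fun x => x.1 = e.1).map fun x => x.2.toList :=
    List.mem_map.2 ⟨e, List.mem_filter.2 ⟨he, decide_eq_true rfl⟩, rfl⟩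
  rw [filter_eq h] at h1
  revert h1
  delta dc
  cases Nat.beq (cc w T r e.1) 0 with
  | true => exact fun h1 => absurd h1 List.not_mem_nil
  | false => exact fun h1 => by rw [List.mem_singleton.1 h1]; exact Nat.le_refl 1

end Cfsg.Agent.ChevFast
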