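import Cfsg.Agent.ChevFast.E8
import Cfsg.Agent.ChevFast.Act
import Cfsg.Agent.Prune
set_option linter.all false
prune_inst 0x7f00000000000000000000000000000000000000000000000000000000000000000000000000000000000000000000000000000000000000000000000000000000000000000000000000000000000000003fffffffffffffffffffffffffffbeffbdffffffff
open scoped Cfsg.Agent.FastGrp

/-!
# The sparse engine for `E8` on packed tables (helper52)
-/

set_option autoImplicit false

namespace Cfsg.Agent.ChevFast.E8

open Cfsg.Lie Cfsg.Agent.ChevalleyStructure.SparseEng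

/-- the coroot as a sparse vector -/
def coV (r : ℕ) : List (ℕ × ℤ × ℕ) :=
  [(0, gz 32 tC r 0, 1), (1, gz 32 tC r 1, 1), (2, gz 32 tC r 2, 1), (3, gz 32 tC r 3, 1), (4, gz 32 tC r 4, 1),
    (5, gz 32 tC r 5, 1), (6, gz 32 tC r 6, 1), (7, gz 32 tC r 7, 1)]

theorem act : Cfsg.Agent.ChevalleyStructure.SparseEng.act chevE8 = actT 8 240 (gz 960 tA) coV 2160 tT :=
  act_eq rfl rfl rfl neg cartan (fun r hr => by rewrite [coroot]; beta_reduce; rewrite [Nat.blt_eq.mpr hr]; rfl) rows

end Cfsg.Agent.ChevFast.E8
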